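import Cfsg.Agent.CycZ.Basic

/-!
# An involution fixing two points fixes exactly two points
-/

set_option autoImplicit false

namespace Cfsg.Lib.CycZ

open MulAction

/-- The pointwise stabiliser of the fixed points of `u`. -/
def Ysub {X : Type*} (Ω : Type*) [Group X] [MulAction X Ω] (u : X) : Subgroup X where
  carrier := {y | ∀ w : Ω, u • w = w → y • w = w}
  one_mem' := fun w _ => one_smul X w
  mul_mem' := fun {a b} ha hb w hw => by rw [mul_smul, hb w hw, ha w hw]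
  inv_mem' := fun {a} ha w hw => by rw [inv_smul_eq_iff, ha w hw]

/-- The configuration where the centraliser of `u` acts like `PGL₂(p)` on the fixed points. -/
structure Big (X Ω : Type*) [Group X] [MulAction X Ω] (A : Subgroup X) (u a : X) (o i : Ω) :
    Prop extends Setup X Ω A where
  uu : u * u = 1
  u1 : u ≠ 1
  aA : a ∈ A
  aa : a * a = 1
  fpf : ∀ w : Ω, a • w ≠ w
  uo : u • o = o
  ui : u • i = i
  ao : a • o = i
  h3 : ∀ p q c d : Ω, u • p = p → u • q = q → u • c = c → u • d = d → p ≠ q → c ≠ p → c ≠ q →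
    d ≠ p → d ≠ q → ∃ g : X, g • p = p ∧ g • q = q ∧ g • c = d
  hs : ∀ g : X, g * u = u * g → ∀ p q c : Ω, u • p = p → u • q = q → u • c = c → p ≠ q → c ≠ p →
    c ≠ q → g • p = p → g • q = q → g • c = c → g ∈ Ysub Ω u
  hi : ∀ g : X, g * u = u * g → ∀ p q : Ω, u • p = p → u • q = q → p ≠ q → g • p = q →
    g • q = p → g * g ∈ Ysub Ω u
  h4 : ∀ x y z : Ω, ∃ w, u • w = w ∧ w ≠ x ∧ w ≠ y ∧ w ≠ z

namespace Big

variable {X Ω : Type*} [Group X] [MulAction X Ω] {A : Subgroup X} {u a : X} {o i : Ω}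
  (B : Big X Ω A u a o i) [FaithfulSMul X Ω] [Finite X]
include B

omit [FaithfulSMul X Ω] [Finite X] in
theorem ai : a • i = o := by rw [← B.ao, ← mul_smul, B.aa, one_smul]

omit [FaithfulSMul X Ω] [Finite X] in
theorem oi : o ≠ i := fun h => B.fpf o (by rw [B.ao, h])

omit B [FaithfulSMul X Ω] [Finite X] in
theorem fix_smul {g : X} (hg : g * u = u * g) {w : Ω} (hw : u • w = w) : u • g • w = g • w := by
  rw [← mul_smul, ← hg, mul_smul, hw]

theorem cu {g : X} {x y : Ω} (hxy : x ≠ y) (h1 : u • x = x) (h2 : u • y = y)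
    (h3 : u • g • x = g • x) (h4 : u • g • y = g • y) : g * u = u * g :=
  B.toSetup.comm_u B.uu B.u1 hxy h1 h2 h3 h4

theorem cu_fix {g : X} {x y : Ω} (hxy : x ≠ y) (h1 : u • x = x) (h2 : u • y = y)
    (h3 : g • x = x) (h4 : g • y = y) : g * u = u * g :=
  B.cu hxy h1 h2 (by rw [h3, h1]) (by rw [h4, h2])

theorem cu_D {g : X} (h3 : g • o = o) (h4 : g • i = i) : g * u = u * g :=
  B.cu_fix B.oi B.uo B.ui h3 h4

theorem cu_sw {g : X} (h3 : g • o = i) (h4 : g • i = o) : g * u = u * g :=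
  B.cu B.oi B.uo B.ui (by rw [h3, B.ui]) (by rw [h4, B.uo])

theorem au : a * u = u * a := B.cu_sw B.ao B.ai

omit B [FaithfulSMul X Ω] [Finite X] in
theorem cu_inv_mul {d g : X} (hd : d * u = u * d) (hg : g * u = u * g) :
    d⁻¹ * g * u = u * (d⁻¹ * g) :=
  ((show Commute d u from hd).inv_left.mul_left (show Commute g u from hg)).eq

theorem Y_central {y g : X} (hy : y ∈ Ysub Ω u) (hg : g * u = u * g) : y * g = g * y := by
  have ha : ∀ (g : X) (p q : Ω), u • p = p → u • q = q → p ≠ q → g • p = p → g • q = q →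
      y * g = g * y := fun g p q h1 h2 h3 h4 h5 =>
    B.toSetup.comm2 h3 (hy p h1) (hy q h2) h4 h5
  have hm : ∀ d g : X, y * d = d * y → y * (d⁻¹ * g) = d⁻¹ * g * y → y * g = g * y :=
    fun d g h1 h2 => by
      have := (show Commute y d from h1).mul_right (show Commute y (d⁻¹ * g) from h2)
      rw [mul_inv_cancel_left] at this
      exact this.eq
  have hb : ∀ (g : X) (p : Ω), g * u = u * g → u • p = p → g • p = p → y * g = g * y := by
    intro g p hg h1 h2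
    obtain ⟨q, hq, hqp, -, -⟩ := B.h4 p p p
    by_cases hgq : g • q = q
    · exact ha g p q h1 hq hqp.symm h2 hgq
    obtain ⟨w, hw, w1, w2, w3⟩ := B.h4 p q (g • q)
    obtain ⟨d, d1, d2, d3⟩ := B.h3 p w q (g • q) h1 hw hq (fix_smul hg hq) w1.symm hqp w2.symm
      (fun h => hqp (MulAction.injective g (h.trans h2.symm))) w3.symm
    refine hm d g (ha d p w h1 hw w1.symm d1 d2) (ha _ p q h1 hq hqp.symm ?_ ?_)
    · rw [mul_smul, h2, inv_smul_eq_iff, d1]
    · rw [mul_smul, inv_smul_eq_iff, d3]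
  by_cases hgo : g • o = o
  · exact hb g o hg B.uo hgo
  obtain ⟨w, hw, w1, w2, -⟩ := B.h4 o (g • o) o
  obtain ⟨w', hw', w1', w2', w3'⟩ := B.h4 o (g • o) w
  obtain ⟨d, d1, d2, d3⟩ := B.h3 w w' o (g • o) hw hw' B.uo (fix_smul hg B.uo) w3'.symm w1.symm
    w1'.symm w2.symm w2'.symm
  refine hm d g (ha d w w' hw hw' w3'.symm d1 d2)
    (hb _ o (cu_inv_mul (B.cu_fix w3'.symm hw hw' d1 d2) hg) B.uo ?_)
  rw [mul_smul, inv_smul_eq_iff, d3]

theorem sw_inv {e : X} (h1 : e • o = o) (h2 : e • i = i) : a * e * (a * e) ∈ Ysub Ω u := by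
  have h3 : (a * e) • o = i := by rw [mul_smul, h1, B.ao]
  have h4 : (a * e) • i = o := by rw [mul_smul, h2, B.ai]
  exact B.hi _ (B.cu_sw h3 h4) o i B.uo B.ui B.oi h3 h4

theorem Y_inv {y : X} (hy : y ∈ Ysub Ω u) (h : y * y = 1) : y = 1 ∨ y = u := by
  by_cases h1 : y = 1
  · exact Or.inl h1
  · exact Or.inr (B.toSetup.inv_unique B.oi h B.uu h1 B.u1 (hy o B.uo) (hy i B.ui) B.uo B.ui)

theorem D_inv {y : X} (h1 : y • o = o) (h2 : y • i = i) (h : y * y = 1) : y = 1 ∨ y = u := by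
  by_cases h1' : y = 1
  · exact Or.inl h1'
  · exact Or.inr (B.toSetup.inv_unique B.oi h B.uu h1' B.u1 h1 h2 B.uo B.ui)

theorem exists_fix : ∃ (x : Ω) (d : X), u • x = x ∧ x ≠ o ∧ x ≠ i ∧ d • o = o ∧ d • i = i ∧
    (a * d) • x = x := by
  obtain ⟨x, hx, x1, x2, -⟩ := B.h4 o i o
  obtain ⟨d, d1, d2, d3⟩ := B.h3 o i x (a • x) B.uo B.ui hx (fix_smul B.au hx) B.oi x1 x2
    (fun h => x2 (MulAction.injective a (h.trans B.ai.symm)))
    (fun h => x1 (MulAction.injective a (h.trans B.ao.symm)))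
  exact ⟨x, d, hx, x1, x2, d1, d2, by rw [mul_smul, d3, ← mul_smul, B.aa, one_smul]⟩

theorem conj_a {e : X} (h1 : e • o = o) (h2 : e • i = i) :
    ∃ y ∈ Ysub Ω u, e⁻¹ * a = y * (a * e) := by
  have hy := B.sw_inv (e := e⁻¹) (by rw [inv_smul_eq_iff, h1]) (by rw [inv_smul_eq_iff, h2])
  refine ⟨_, hy, ?_⟩
  rw [B.Y_central hy (B.cu_sw (by rw [mul_smul, h1, B.ao]) (by rw [mul_smul, h2, B.ai]))]
  have hc := B.Y_central hy B.au
  have haa := B.aa
  have ha : a⁻¹ = a := inv_eq_of_mul_eq_one_right haa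
  have hc2 := B.Y_central hy (B.cu_D h1 h2)
  calc e⁻¹ * a = a * (a * e⁻¹ * (a * e⁻¹) * e) := by
        rw [show a * (a * e⁻¹ * (a * e⁻¹) * e) = (a * a) * e⁻¹ * a by group, haa, one_mul]
    _ = a * e * (a * e⁻¹ * (a * e⁻¹)) := by rw [hc2, ← mul_assoc]

theorem conj_v {t : X} (tt : t * t = 1) (h1 : t • o = i) (h2 : t • i = o) {z : Ω}
    (hz : t • z = z) (hf : ∀ w : Ω, u • w = w → t • w ≠ w) :
    ∃ e : X, e • o = o ∧ e • i = i ∧ t = e⁻¹ * (a * u) * e := by
  obtain ⟨δ, δ1, δ2, hδ⟩ := B.toSetup.exists_gen B.oi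
  have p1 : ∀ k : ℤ, δ ^ k • o = o := fun k => (stabilizer X o).zpow_mem δ1 k
  have p2 : ∀ k : ℤ, δ ^ k • i = i := fun k => (stabilizer X i).zpow_mem δ2 k
  have key : ∀ k l : ℤ, (∃ w : Ω, u • w = w ∧ (a * δ ^ k) • w = w) →
      ∃ w : Ω, u • w = w ∧ (a * δ ^ (k + 2 * l)) • w = w := by
    rintro k l ⟨w, hw, hw'⟩
    obtain ⟨y, hy, hy'⟩ := B.conj_a (p1 l) (p2 l)
    have hw2 : u • (δ ^ l)⁻¹ • w = (δ ^ l)⁻¹ • w := by
      rw [← zpow_neg]; exact fix_smul (B.cu_D (p1 _) (p2 _)) hw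
    refine ⟨(δ ^ l)⁻¹ • w, hw2, ?_⟩
    have e1 : ((δ ^ l)⁻¹ * a * (δ ^ k * δ ^ l)) • (δ ^ l)⁻¹ • w = (δ ^ l)⁻¹ • w := by
      rw [mul_smul, mul_smul, mul_smul, smul_inv_smul, ← mul_smul a, hw']
    have e2 : (δ ^ l)⁻¹ * a * (δ ^ k * δ ^ l) = y * (a * δ ^ (k + 2 * l)) := by
      rw [hy']; group
    rw [e2, mul_smul, hy _ (fix_smul (B.cu_sw (by rw [mul_smul, p1, B.ao])
      (by rw [mul_smul, p2, B.ai])) hw2)] at e1
    exact e1
  obtain ⟨x, d, hx, -, -, d1, d2, d3⟩ := B.exists_fix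
  obtain ⟨k, rfl⟩ := hδ d d1 d2
  obtain ⟨j, hj⟩ := hδ (a * t) (by rw [mul_smul, h1, B.ai]) (by rw [mul_smul, h2, B.ao])
  have ht : t = a * δ ^ j := by rw [← hj, ← mul_assoc, B.aa, one_mul]
  rcases Int.even_or_odd' k with ⟨k', rfl | rfl⟩
  · obtain ⟨w, -, hw⟩ := key _ (-k') ⟨x, hx, d3⟩
    rw [show 2 * k' + 2 * -k' = 0 by ring, zpow_zero, mul_one] at hw
    exact absurd hw (B.fpf w)
  rcases Int.even_or_odd' j with ⟨l, rfl | rfl⟩
  swap
  · obtain ⟨w, hw0, hw⟩ := key _ (l - k') ⟨x, hx, d3⟩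
    rw [show 2 * k' + 1 + 2 * (l - k') = 2 * l + 1 by ring, ← ht] at hw
    exact absurd hw (hf w hw0)
  obtain ⟨y, hy, hy'⟩ := B.conj_a (p1 l) (p2 l)
  have e1 : (δ ^ l)⁻¹ * a * δ ^ l = y * t := by rw [hy', ht]; group
  have hyt := B.Y_central hy (B.cu_sw h1 h2)
  have hyy : y * y = 1 := by
    have e2 : y * t * (y * t) = 1 := by
      rw [← e1]
      calc (δ ^ l)⁻¹ * a * δ ^ l * ((δ ^ l)⁻¹ * a * δ ^ l) = (δ ^ l)⁻¹ * (a * a) * δ ^ l := by group
        _ = 1 := by rw [B.aa]; group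
    calc y * y = y * y * (t * t) := by rw [tt, mul_one]
      _ = y * (y * t) * t := by group
      _ = y * (t * y) * t := by rw [hyt]
      _ = y * t * (y * t) := by group
      _ = 1 := e2
  rcases B.Y_inv hy hyy with rfl | rfl
  · rw [one_mul] at e1
    rw [← e1, mul_smul, mul_smul, inv_smul_eq_iff] at hz
    exact absurd hz (B.fpf _)
  · refine ⟨δ ^ l, p1 l, p2 l, ?_⟩
    have hc := B.cu_D (p1 l) (p2 l)
    calc t = t * (y * y) := by rw [hyy, mul_one]
      _ = y * t * y := by rw [hyt]; group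
      _ = (δ ^ l)⁻¹ * a * (δ ^ l * y) := by rw [← e1]; group
      _ = (δ ^ l)⁻¹ * (a * y) * δ ^ l := by rw [hc]; group

omit [FaithfulSMul X Ω] in
theorem fpf_of_comm {t : X} (tt : t * t = 1) (t1 : t ≠ 1) (tu : t ≠ u) (hc : t * u = u * t)
    (w : Ω) (hw : u • w = w) : t • w ≠ w := fun h =>
  tu (B.toSetup.comm_inv_eq tt B.uu t1 B.u1 hc h hw)

omit [FaithfulSMul X Ω] [Finite X] in
theorem conj_sq (g : X) : g * u * g⁻¹ * (g * u * g⁻¹) = 1 := by
  calc g * u * g⁻¹ * (g * u * g⁻¹) = g * (u * u) * g⁻¹ := by group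
    _ = 1 := by rw [B.uu]; group

omit [FaithfulSMul X Ω] [Finite X] in
theorem conj_ne (g : X) : g * u * g⁻¹ ≠ 1 := fun h => B.u1 (by
  calc u = g⁻¹ * (g * u * g⁻¹) * g := by group
    _ = 1 := by rw [h]; group)

omit [FaithfulSMul X Ω] [Finite X] in
theorem conj_fix (g : X) : (g * u * g⁻¹) • g • o = g • o := by
  rw [mul_smul, inv_smul_smul, mul_smul, B.uo]

theorem exists_h : ∃ h : X, h * u * h⁻¹ = a * u := by
  obtain ⟨z, hz⟩ : ∃ z : Ω, u • z ≠ z := by
    by_contra h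
    push Not at h
    exact B.u1 (eq_of_smul_eq_smul (α := Ω) fun w => by rw [h, one_smul])
  obtain ⟨g, g1, g2⟩ := B.tr2 z (u • z) o i hz.symm B.oi
  have h1 : (g * u * g⁻¹) • o = i := by rw [← g1, mul_smul, inv_smul_smul, mul_smul, g2]
  have h2 : (g * u * g⁻¹) • i = o := by
    rw [← h1, ← mul_smul, B.conj_sq, one_smul]
  obtain ⟨e, -, -, he⟩ := B.conj_v (B.conj_sq g) h1 h2 (B.conj_fix g)
    (B.fpf_of_comm (B.conj_sq g) (B.conj_ne g) (fun h => B.oi (by rw [← h1, h, B.uo]))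
      (B.cu_sw h1 h2))
  refine ⟨e * g, ?_⟩
  calc e * g * u * (e * g)⁻¹ = e * (g * u * g⁻¹) * e⁻¹ := by group
    _ = a * u := by rw [he]; group

theorem exists_g : ∃ g : X, g * u * g⁻¹ = a * u ∧ g * (a * u) * g⁻¹ = u := by
  obtain ⟨h, hh⟩ := B.exists_h
  have hw : h⁻¹ * u * h⁻¹⁻¹ * u = u * (h⁻¹ * u * h⁻¹⁻¹) := by
    have : u * (h * u * h⁻¹) = h * u * h⁻¹ * u := by
      rw [hh, ← mul_assoc, ← B.au]
    calc h⁻¹ * u * h⁻¹⁻¹ * u = h⁻¹ * (u * (h * u * h⁻¹)) * h := by group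
      _ = u * (h⁻¹ * u * h⁻¹⁻¹) := by rw [this]; group
  have hne : h⁻¹ * u * h⁻¹⁻¹ ≠ u := by
    intro e
    have : h * u * h⁻¹ = u := by
      calc h * u * h⁻¹ = h * (h⁻¹ * u * h⁻¹⁻¹) * h⁻¹ := by rw [e]
        _ = u := by group
    rw [hh] at this
    exact B.fpf o (by rw [mul_eq_right.1 this, one_smul])
  have hf := B.fpf_of_comm (B.conj_sq h⁻¹) (B.conj_ne h⁻¹) hne hw
  set w := h⁻¹ * u * h⁻¹⁻¹ with hwdef
  obtain ⟨c, c1, c2⟩ := B.tr2 o (w • o) o i (hf o B.uo).symm B.oi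
  have hc : c * u = u * c :=
    B.cu (hf o B.uo).symm B.uo (fix_smul hw B.uo) (by rw [c1, B.uo]) (by rw [c2, B.ui])
  have e0 : c * w * c⁻¹ = (c * h⁻¹) * u * (c * h⁻¹)⁻¹ := by rw [hwdef]; group
  have h1 : (c * w * c⁻¹) • o = i := by
    rw [mul_smul, mul_smul, inv_smul_eq_iff.2 c1.symm, c2]
  have h2 : (c * w * c⁻¹) • i = o := by
    rw [← h1, ← mul_smul, e0, B.conj_sq, one_smul]
  obtain ⟨e, e1, e2, he⟩ := B.conj_v (t := c * w * c⁻¹) (by rw [e0]; exact B.conj_sq _) h1 h2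
    (by rw [e0]; exact B.conj_fix _)
    (B.fpf_of_comm (by rw [e0]; exact B.conj_sq _) (by rw [e0]; exact B.conj_ne _)
      (fun h => B.oi (by rw [← h1, h, B.uo])) (B.cu_sw h1 h2))
  have hec : e * c * u = u * (e * c) :=
    ((show Commute e u from B.cu_D e1 e2).mul_left (show Commute c u from hc)).eq
  refine ⟨h * (e * c)⁻¹, ?_, ?_⟩
  · calc h * (e * c)⁻¹ * u * (h * (e * c)⁻¹)⁻¹ = h * (e * c)⁻¹ * (u * (e * c)) * h⁻¹ := by group
      _ = h * u * h⁻¹ := by rw [← hec]; group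
      _ = a * u := hh
  · calc h * (e * c)⁻¹ * (a * u) * (h * (e * c)⁻¹)⁻¹
        = h * c⁻¹ * (e⁻¹ * (a * u) * e) * c * h⁻¹ := by group
      _ = u := by rw [← he, hwdef]; group

theorem comm_a : ∀ (k : ℕ) (e : X), e • o = o → e • i = i → e ^ 2 ^ k = 1 → e * a = a * e := by
  obtain ⟨h, hh⟩ := B.exists_h
  intro k
  induction k with
  | zero => intro e _ _ he; rw [pow_zero, pow_one] at he; rw [he, one_mul, mul_one]
  | succ k ih =>
    intro e e1 e2 he
    have h2 := ih (e * e) (by rw [mul_smul, e1, e1]) (by rw [mul_smul, e2, e2])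
      (by rw [← pow_two, ← pow_mul, ← pow_succ', he])
    have f1 : (a * e * a) • o = o := by rw [mul_smul, mul_smul, B.ao, e2, B.ai]
    have f2 : (a * e * a) • i = i := by rw [mul_smul, mul_smul, B.ai, e1, B.ao]
    have hc := B.toSetup.comm2 B.oi e1 e2 f1 f2
    have hsq : e⁻¹ * (a * e * a) * (e⁻¹ * (a * e * a)) = 1 := by
      have hc' : a * e * a * e⁻¹ = e⁻¹ * (a * e * a) :=
        ((show Commute e (a * e * a) from hc).inv_left).symm.eq
      calc e⁻¹ * (a * e * a) * (e⁻¹ * (a * e * a))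
          = e⁻¹ * (a * e * a * e⁻¹) * (a * e * a) := by group
        _ = (e * e)⁻¹ * (a * e * (a * a) * e * a) := by rw [hc']; group
        _ = (e * e)⁻¹ * (a * (e * e)) * a := by rw [B.aa]; group
        _ = a * a := by rw [← h2]; group
        _ = 1 := B.aa
    rcases B.D_inv (by rw [mul_smul, f1, inv_smul_eq_iff, e1])
      (by rw [mul_smul, f2, inv_smul_eq_iff, e2]) hsq with h3 | h3
    · calc e * a = e * (e⁻¹ * (a * e * a)) * a := by rw [h3, mul_one]
        _ = a * e * (a * a) := by group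
        _ = a * e := by rw [B.aa, mul_one]
    · exfalso
      have h4 : e⁻¹ * a * e = h * u * h⁻¹ := by
        rw [hh, B.au, ← h3]
        calc e⁻¹ * a * e = e⁻¹ * a * e * (a * a) := by rw [B.aa, mul_one]
          _ = _ := by group
      have h5 := B.conj_fix h
      rw [← h4, mul_smul, mul_smul, inv_smul_eq_iff] at h5
      exact B.fpf _ h5

theorem exists_e0 [Finite Ω] : ∃ (k : ℕ) (e : X), e • o = o ∧ e • i = i ∧ e ^ 2 ^ k = 1 ∧
    e ∉ Ysub Ω u := by
  obtain ⟨x, d, hx, x1, x2, d1, d2, d3⟩ := B.exists_fix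
  have s1 : (a * d) • o = i := by rw [mul_smul, d1, B.ao]
  have s2 : (a * d) • i = o := by rw [mul_smul, d2, B.ai]
  have hc := B.cu_sw s1 s2
  have hev := even_card_fix (fun w : Ω => u • w) (fun w => by rw [← mul_smul, B.uu, one_smul])
    B.even
  obtain ⟨⟨x', hx'⟩, y1, y2⟩ := exists_second_fix (Ω := {w : Ω // u • w = w})
    (fun w => ⟨(a * d) • w.1, fix_smul hc w.2⟩)
    (fun w => Subtype.ext (by
      change (a * d) • (a * d) • w.1 = w.1
      rw [← mul_smul]; exact B.sw_inv d1 d2 _ w.2)) hev (x := ⟨x, hx⟩) (Subtype.ext d3)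
  have y1' : x' ≠ x := fun h => y1 (Subtype.ext h)
  have y2' : (a * d) • x' = x' := congrArg Subtype.val y2
  obtain ⟨c, c1, c2, c3⟩ := B.h3 o i x x' B.uo B.ui hx hx' B.oi x1 x2
    (fun h => B.oi (by rw [← s1, ← h, y2'])) (fun h => B.oi (by rw [← s2, ← h, y2']))
  obtain ⟨y, hy, hy'⟩ := B.conj_a c1 c2
  have hcd := B.toSetup.comm2 B.oi c1 c2 d1 d2
  have hcc : c * c ∈ Ysub Ω u := by
    have e1 : (c⁻¹ * a * (d * c)) • x = x := by
      rw [mul_smul, mul_smul, mul_smul, c3, ← mul_smul a, y2', inv_smul_eq_iff, c3]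
    have e2 : c⁻¹ * a * (d * c) = y * (a * d * (c * c)) := by
      rw [hy']
      calc y * (a * c) * (d * c) = y * (a * (c * d) * c) := by group
        _ = _ := by rw [hcd]; group
    have hcu : c * c * u = u * (c * c) := B.cu_D (by rw [mul_smul, c1, c1]) (by rw [mul_smul, c2, c2])
    rw [e2, mul_smul, mul_smul, hy _ (fix_smul hc (fix_smul hcu hx))] at e1
    exact B.hs _ hcu o i x B.uo B.ui hx B.oi x1 x2 (by rw [mul_smul, c1, c1])
      (by rw [mul_smul, c2, c2]) (MulAction.injective (a * d) (e1.trans d3.symm))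
  obtain ⟨k, m, hm, hkm⟩ := Nat.exists_eq_two_pow_mul_odd (orderOf_pos c).ne'
  refine ⟨k, c ^ m, (stabilizer X o).pow_mem c1 m, (stabilizer X i).pow_mem c2 m, ?_, fun h => ?_⟩
  · rw [← pow_mul, mul_comm, ← hkm, pow_orderOf_eq_one]
  · obtain ⟨r, rfl⟩ := hm
    rw [pow_succ, pow_mul, pow_two] at h
    have := (Subgroup.mul_mem_cancel_left _ ((Ysub Ω u).pow_mem hcc r)).1 h
    exact y1' (by rw [← c3, this x hx])

theorem exists_sqrt : ∀ (k : ℕ) (e : X), e • o = o → e • i = i → e ^ 2 ^ k = 1 → e ≠ 1 → e ≠ u →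
    ∃ e' : X, e' • o = o ∧ e' • i = i ∧ e' * e' = u := by
  intro k
  induction k with
  | zero => intro e _ _ he h; rw [pow_zero, pow_one] at he; exact absurd he h
  | succ k ih =>
    intro e e1 e2 he h1 h2
    by_cases h3 : e * e = u
    · exact ⟨e, e1, e2, h3⟩
    by_cases h4 : e * e = 1
    · rcases B.D_inv e1 e2 h4 with h | h
      · exact absurd h h1
      · exact absurd h h2
    exact ih (e * e) (by rw [mul_smul, e1, e1]) (by rw [mul_smul, e2, e2])
      (by rw [← pow_two, ← pow_mul, ← pow_succ', he]) h4 h3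

omit [FaithfulSMul X Ω] [Finite X] in
theorem sqrt_move {f : X} (ff : f * f = a * u) : f • o ≠ o ∧ f • o ≠ i := by
  have h : f • f • o = i := by rw [← mul_smul, ff, mul_smul, B.uo, B.ao]
  refine ⟨fun h1 => B.oi (by rw [← h, h1, h1]), fun h1 => B.oi ?_⟩
  rw [h1] at h
  exact MulAction.injective f (h1.trans h.symm)

theorem sq_mem_of_comm {d : X} (d1 : d • o = o) (d2 : d • i = i)
    (h : ∀ w : Ω, u • w = w → d • a • w = a • d • w) : d * d ∈ Ysub Ω u := by
  intro w hw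
  have h1 := B.sw_inv d1 d2 w hw
  have h2 : u • d • w = d • w := fix_smul (B.cu_D d1 d2) hw
  simp only [mul_smul] at h1 ⊢
  rwa [h _ h2, ← mul_smul a a, B.aa, one_smul] at h1

theorem exists_y {f : X} (fu : f * u = u * f) (ff : f * f = a * u) :
    ∃ y ∈ Ysub Ω u, y * y = u := by
  have fa : f * a = a * f := by
    have h1 : Commute f (a * u) := by rw [← ff]; exact (Commute.refl f).mul_right (Commute.refl f)
    have h2 := h1.mul_right (show Commute f u from fu)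
    rw [mul_assoc, B.uu, mul_one] at h2
    exact h2.eq
  obtain ⟨x1, x2⟩ := B.sqrt_move ff
  have hx := fix_smul fu B.uo
  set x := f • o with hxdef
  have hax := fix_smul B.au hx
  obtain ⟨b, hb, b1⟩ := B.trA o x
  have hba := B.toSetup.A_comm hb B.aA
  have b2 : b • i = a • x := by rw [← B.ao, ← mul_smul, hba, mul_smul, b1]
  have bu : b * u = u * b := B.cu B.oi B.uo B.ui (by rw [b1, hx]) (by rw [b2, hax])
  have f2 : f • i = a • x := by rw [← B.ao, ← mul_smul, fa, mul_smul]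
  have hD : ∀ r : X, r • o = x → r • i = a • x → (b⁻¹ * r) • o = o ∧ (b⁻¹ * r) • i = i :=
    fun r h1 h2 => ⟨by rw [mul_smul, h1, inv_smul_eq_iff, b1],
      by rw [mul_smul, h2, inv_smul_eq_iff, b2]⟩
  have hsq : ∀ r : X, r • o = x → r • i = a • x → (∀ w : Ω, u • w = w → r • a • w = a • r • w) →
      b⁻¹ * r * (b⁻¹ * r) ∈ Ysub Ω u := fun r h1 h2 h3 => by
    refine B.sq_mem_of_comm (hD r h1 h2).1 (hD r h1 h2).2 fun w hw => ?_
    rw [mul_smul, mul_smul, h3 w hw, ← mul_smul, ← mul_smul a b⁻¹,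
      (show Commute b a from hba).inv_left.eq]
  -- the auxiliary swap
  obtain ⟨r0, r1, r2⟩ := B.tr2 o x x o x1.symm x1
  have r0u : r0 * u = u * r0 := B.cu x1.symm B.uo hx (by rw [r1, hx]) (by rw [r2, B.uo])
  obtain ⟨s, s1, s2, s3⟩ := B.h3 o x (r0 • i) (a • x) B.uo hx (fix_smul r0u B.ui) hax x1.symm
    (fun h => x2 (MulAction.injective r0 (r2.trans h.symm)))
    (fun h => B.oi (MulAction.injective r0 (r1.trans h.symm)))
    (fun h => x2 (MulAction.injective a (h.trans B.ai.symm))) (B.fpf x)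
  have t1 : (s * r0) • o = x := by rw [mul_smul, r1, s2]
  have t2 : (s * r0) • x = o := by rw [mul_smul, r2, s1]
  have t3 : (s * r0) • i = a • x := by rw [mul_smul, s3]
  generalize s * r0 = r at t1 t2 t3
  have ru : r * u = u * r := B.cu x1.symm B.uo hx (by rw [t1, hx]) (by rw [t2, B.uo])
  have rr := B.hi r ru o x B.uo hx x1.symm t1 t2
  have t4 : r • a • x = i := by rw [← t3, ← mul_smul]; exact rr i B.ui
  have hra : ∀ w : Ω, u • w = w → r • a • w = a • r • w := by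
    have hm := B.hs ((a * r)⁻¹ * (r * a))
      (cu_inv_mul ((show Commute a u from B.au).mul_left (show Commute r u from ru)).eq
        ((show Commute r u from ru).mul_left (show Commute a u from B.au)).eq)
      o i x B.uo B.ui hx B.oi x1 x2
      (by rw [mul_smul, inv_smul_eq_iff, mul_smul, mul_smul, B.ao, t1, t3])
      (by rw [mul_smul, inv_smul_eq_iff, mul_smul, mul_smul, B.ai, t1, t3, ← mul_smul, B.aa,
        one_smul])
      (by rw [mul_smul, inv_smul_eq_iff, mul_smul, mul_smul, t4, t2, B.ao])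
    intro w hw
    have := hm w hw
    rwa [mul_smul, inv_smul_eq_iff, mul_smul, mul_smul] at this
  have hdY : b⁻¹ * f ∈ Ysub Ω u := by
    by_contra hd
    obtain ⟨δ, -, -, hδ⟩ := B.toSetup.exists_gen B.oi
    obtain ⟨j, hj⟩ := hδ _ (hD f rfl f2).1 (hD f rfl f2).2
    obtain ⟨k, hk⟩ := hδ _ (hD r t1 t3).1 (hD r t1 t3).2
    have q1 := hsq f rfl f2 (fun w _ => by rw [← mul_smul, fa, mul_smul])
    have q2 := hsq r t1 t3 hra
    by_cases hd' : b⁻¹ * r ∈ Ysub Ω u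
    · have e1 : b • x = o := by
        have := hd' x hx
        rw [mul_smul, t2, inv_smul_eq_iff] at this
        exact this.symm
      have e2 : b * b = 1 :=
        B.toSetup.A_reg (A.mul_mem hb hb) (x := o) (by rw [mul_smul, b1, e1])
      haveI := B.cyc
      have e3 := inv_eq_of_isCyclic (Q := A) (s := ⟨b, hb⟩) (t := ⟨a, B.aA⟩) (Subtype.ext e2)
        (Subtype.ext B.aa)
        (fun h => x1 (by rw [← b1, show b = 1 from congrArg Subtype.val h, one_smul]))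
        (fun h => B.fpf o (by rw [show a = 1 from congrArg Subtype.val h, one_smul]))
      exact x2 (by rw [← b1, show b = a from congrArg Subtype.val e3, B.ao])
    · rw [hj] at q1 hd
      rw [hk] at q2 hd'
      have := zpow_half _ δ q1 q2 hd hd'
      rw [← hj, ← hk, show (b⁻¹ * r)⁻¹ * (b⁻¹ * f) = r⁻¹ * f by group] at this
      have e1 := this x hx
      rw [mul_smul, inv_smul_eq_iff, t2, hxdef, ← mul_smul, ff, mul_smul, B.uo, B.ao] at e1
      exact B.oi e1.symm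
  refine ⟨_, hdY, ?_⟩
  set y := b⁻¹ * f with hy
  have hf : f = b * y := by rw [hy, mul_inv_cancel_left]
  have hby := B.Y_central hdY bu
  have e1 : b * b * (y * y) = a * u := by
    rw [← ff, hf]
    calc b * b * (y * y) = b * (b * y) * y := by group
      _ = b * (y * b) * y := by rw [hby]
      _ = _ := by group
  have e2 : a⁻¹ * (b * b) = 1 := by
    refine B.toSetup.A_reg (A.mul_mem (A.inv_mem B.aA) (A.mul_mem hb hb)) (x := o) ?_
    have : (b * b * (y * y)) • o = (a * u) • o := by rw [e1]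
    rw [mul_smul, ((Ysub Ω u).mul_mem hdY hdY) o B.uo, mul_smul a u, B.uo] at this
    rw [mul_smul, this, inv_smul_smul]
  rw [← inv_mul_eq_one.1 e2] at e1
  exact mul_left_cancel e1

theorem false [Finite Ω] : False := by
  obtain ⟨g, g1, g2⟩ := B.exists_g
  obtain ⟨k, e0, e1, e2, e3, e4⟩ := B.exists_e0
  obtain ⟨e, f1, f2, f3⟩ := B.exists_sqrt k e0 e1 e2 e3 (fun h => e4 (h ▸ (Ysub Ω u).one_mem))
    (fun h => e4 (h ▸ fun w hw => hw))
  have hv : ∀ c : X, c * u = u * c → c * a = a * c → Commute c (a * u) := fun c h1 h2 =>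
    (show Commute c a from h2).mul_right (show Commute c u from h1)
  have hev := hv e (B.cu_D f1 f2) (B.comm_a 2 e f1 f2 (by
    rw [show 2 ^ 2 = 2 * 2 by norm_num, pow_mul, pow_two e, f3, pow_two, B.uu]))
  obtain ⟨y, hy, yy⟩ := B.exists_y (f := g * e * g⁻¹)
    (by rw [← g2]
        calc g * e * g⁻¹ * (g * (a * u) * g⁻¹) = g * (e * (a * u)) * g⁻¹ := by group
          _ = _ := by rw [hev.eq]; group)
    (by rw [← g1, ← f3]; group)
  have hcen : ∀ c : X, Commute c (a * u) → g * y * g⁻¹ * c = c * (g * y * g⁻¹) := fun c hc => by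
    have h1 : g⁻¹ * c * g * u = u * (g⁻¹ * c * g) := by
      calc g⁻¹ * c * g * u = g⁻¹ * (c * (g * u * g⁻¹)) * g := by group
        _ = g⁻¹ * (g * u * g⁻¹ * c) * g := by rw [g1, hc.eq]
        _ = _ := by group
    have h2 := B.Y_central hy h1
    calc g * y * g⁻¹ * c = g * (y * (g⁻¹ * c * g)) * g⁻¹ := by group
      _ = _ := by rw [h2]; group
  have ff : g * y * g⁻¹ * (g * y * g⁻¹) = a * u := by rw [← g1, ← yy]; group
  obtain ⟨x1, x2⟩ := B.sqrt_move ff
  have fu := hcen u (hv u rfl B.au.symm)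
  have fe := hcen e0 (hv e0 (B.cu_D e1 e2) (B.comm_a k e0 e1 e2 e3))
  exact e4 (B.hs e0 (B.cu_D e1 e2) o i _ B.uo B.ui (fix_smul fu B.uo) B.oi x1 x2 e1 e2
    (by rw [← mul_smul, ← fe, mul_smul, e1]))

end Big

end Cfsg.Lib.CycZ
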