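import Cfsg.Agent.CycZ.Big
import Cfsg.Agent.Cor.OddSol
import Cfsg.Agent.Trans.SylowIn

/-!
# Doubly transitive groups of even degree with a transitive cyclic subgroup and Z-group stabilisers
-/

set_option autoImplicit false

namespace Cfsg.Lib.CycZ

open MulAction
open scoped commutatorElement

theorem card_dvd_of_trans {X Ω : Type*} [Group X] [MulAction X Ω] (N : Subgroup X) (o : Ω)
    (h : ∀ y : Ω, ∃ k ∈ N, k • o = y) : Nat.card Ω ∣ Nat.card N := by
  haveI : IsPretransitive N Ω := ⟨fun x y => by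
    obtain ⟨k, hk, rfl⟩ := h x
    obtain ⟨l, hl, rfl⟩ := h y
    exact ⟨⟨l * k⁻¹, N.mul_mem hl (N.inv_mem hk)⟩, by
      change (l * k⁻¹) • k • o = l • o
      rw [mul_smul, inv_smul_smul]⟩⟩
  rw [← index_stabilizer_of_transitive N o]
  exact Subgroup.index_dvd_card _

theorem Tr2.normal_trans {X Ω : Type*} [Group X] [MulAction X Ω] (h : Tr2 X Ω) (N : Subgroup X)
    [hN : N.Normal] {k : X} (hk : k ∈ N) {x : Ω} (hx : k • x ≠ x) (o y : Ω) :
    ∃ k ∈ N, k • o = y := by
  by_cases hy : y = o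
  · exact ⟨1, N.one_mem, by rw [hy, one_smul]⟩
  obtain ⟨g, g1, g2⟩ := h x (k • x) o y hx.symm (Ne.symm hy)
  exact ⟨g * k * g⁻¹, hN.conj_mem k hk g, by rw [← g1, mul_smul, inv_smul_smul, mul_smul, g2]⟩

namespace Setup

variable {X Ω : Type*} [Group X] [MulAction X Ω] {A : Subgroup X} (S : Setup X Ω A)
include S

theorem pretrans : IsPretransitive X Ω := ⟨fun x y => by
  obtain ⟨a, -, h⟩ := S.trA x y; exact ⟨a, h⟩⟩

theorem card_two [FaithfulSMul X Ω] [Finite X] [Finite Ω] {o i : Ω} (hoi : o ≠ i)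
    (h : ∀ t : X, t * t = 1 → t • o = o → t • i = i → t = 1) : Nat.card Ω = 2 := by
  haveI := S.pretrans
  have hH : ¬ 2 ∣ Nat.card (stabilizer X o) := by
    intro hd
    obtain ⟨t, ht⟩ := exists_prime_orderOf_dvd_card' (G := stabilizer X o) 2 hd
    have tt : (t : X) * t = 1 := by
      have : t * t = 1 := by rw [← pow_two, ← ht, pow_orderOf_eq_one]
      exact congrArg Subtype.val this
    obtain ⟨y, y1, y2⟩ := exists_second_fix (fun w : Ω => (t : X) • w)
      (fun w => by rw [← mul_smul, tt, one_smul]) S.even (x := o) t.2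
    obtain ⟨g, g1, g2⟩ := S.tr2 o y o i y1.symm hoi
    have := h (g * t * g⁻¹)
      (by calc g * t * g⁻¹ * (g * t * g⁻¹) = g * (t * t) * g⁻¹ := by group
        _ = 1 := by rw [tt]; group)
      (by rw [mul_smul, inv_smul_eq_iff.2 g1.symm, mul_smul, show (t : X) • o = o from t.2, g1])
      (by rw [mul_smul, inv_smul_eq_iff.2 g2.symm, mul_smul, show (t : X) • y = y from y2, g2])
    have t1 : t = 1 := Subtype.ext (by
      calc (t : X) = g⁻¹ * (g * t * g⁻¹) * g := by group
        _ = 1 := by rw [this]; group)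
    rw [t1, orderOf_one] at ht
    exact absurd ht (by decide)
  have hA : A.index = Nat.card (stabilizer X o) := by
    have h1 := A.card_mul_index
    have h2 := (stabilizer X o).card_mul_index
    rw [index_stabilizer_of_transitive] at h2
    rw [S.card_A o, ← h2, mul_comm] at h1
    haveI : Nonempty Ω := ⟨o⟩
    exact Nat.eq_of_mul_eq_mul_right Nat.card_pos h1
  obtain ⟨P, hP⟩ := Trans.exists_isSylowIn (p := 2) A
  have hP' := hP.trans (H := ⊤) le_top (by rw [Subgroup.relIndex_top_right, hA]; exact hH)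
  obtain ⟨Q, hQ⟩ := hP'.exists_sylow_eq
  haveI := S.cyc
  have hc : IsCyclic (Q : Subgroup X) := by
    rw [hQ]; exact isCyclic_of_injective _ (Subgroup.inclusion_injective hP.le)
  obtain ⟨R, N, hN, hc⟩ := Cor.hasNormalPComplement_of_isCyclic_sylow_two Q hc
  have hNo : ¬ 2 ∣ Nat.card N := by
    rw [← hc.index_eq_card]; exact R.not_dvd_index
  have hNb : N = ⊥ := by
    by_contra hne
    obtain ⟨⟨k, hk⟩, hk1⟩ := Subgroup.ne_bot_iff_exists_ne_one.1 hne
    obtain ⟨x, hx⟩ : ∃ x : Ω, k • x ≠ x := by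
      by_contra h'
      push Not at h'
      exact hk1 (Subtype.ext (eq_of_smul_eq_smul (α := Ω) fun w => by
        rw [h', OneMemClass.coe_one, one_smul]))
    exact hNo (S.even.two_dvd.trans (card_dvd_of_trans N o (S.tr2.normal_trans N hk hx o)))
  have hR : (R : Subgroup X) = ⊤ := by
    have := hc.sup_eq_top
    rwa [hNb, bot_sup_eq] at this
  have hX : IsPGroup 2 (stabilizer X o) := R.isPGroup'.to_le (by rw [hR]; exact le_top)
  obtain ⟨n, hn⟩ := hX.exists_card_eq
  have hb : stabilizer X o = ⊥ := by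
    rw [← Subgroup.card_eq_one, hn]
    rcases n with _ | n
    · rfl
    · exact absurd (by rw [hn, pow_succ]; exact Dvd.intro_left _ rfl) hH
  rw [Nat.card_eq_two_iff' o]
  refine ⟨i, hoi.symm, fun y hy => ?_⟩
  obtain ⟨g, g1, g2⟩ := S.tr2 o i o y hoi (Ne.symm hy)
  have : g ∈ stabilizer X o := g1
  rw [hb, Subgroup.mem_bot] at this
  rw [← g2, this, one_smul]

theorem good_of_two [FaithfulSMul X Ω] [Finite X] [Finite Ω] {u a : X} {o : Ω} (uu : u * u = 1)
    (u1 : u ≠ 1) (aa : a * a = 1) (fpf : ∀ w : Ω, a • w ≠ w) (uo : u • o = o)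
    (ui : u • a • o = a • o) (hf : ∀ w : Ω, u • w = w → w = o ∨ w = a • o) : Good X Ω := by
  set i := a • o with hi
  have oi : o ≠ i := (fpf o).symm
  haveI := S.zgrp i
  haveI := IsZGroup.isCyclic_commutator (stabilizer X i)
  obtain ⟨g, hg⟩ := IsCyclic.exists_generator (α := commutator (stabilizer X i))
  obtain ⟨N, hN⟩ : ∃ N, Nat.card (commutator (stabilizer X i)) = N := ⟨_, rfl⟩
  let e := zmodMulEquivOfGenerator hg hN
  let T : ZMod N → X := fun x => ((e (Multiplicative.ofAdd x) : stabilizer X i) : X)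
  have hT : ∀ k : ℤ, T k = ((g : stabilizer X i) : X) ^ k := fun k => by
    have : e (Multiplicative.ofAdd (k : ZMod N)) = g ^ k :=
      zmodMulEquivOfGenerator_apply_ofAdd_intCast hg hN k
    simp only [T, this]
    simp
  have hTa : ∀ x y, T (x + y) = T x * T y := fun x y => by
    simp only [T, ofAdd_add, map_mul, Subgroup.coe_mul]
  have hTi : ∀ x, T x • i = i := fun x => (e (Multiplicative.ofAdd x) : stabilizer X i).2
  have hT0 : T 0 = 1 := by simp [T]
  have hTn : ∀ x, T (-x) = (T x)⁻¹ := fun x =>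
    eq_inv_of_mul_eq_one_left (by rw [← hTa, neg_add_cancel, hT0])
  have hreg : ∀ x, T x • o = o → x = 0 := fun x hx => by
    have := S.K_semireg (e (Multiplicative.ofAdd x)).2 oi hx
    have h2 : e (Multiplicative.ofAdd x) = 1 := Subtype.ext this
    exact (map_eq_one_iff e e.injective).1 h2
  have hinj : ∀ x y, T x • o = T y • o → x = y := fun x y h => by
    have := hreg (-y + x) (by rw [hTa, hTn, mul_smul, h, inv_smul_smul])
    linear_combination this
  have hconj : ∀ d : X, d • i = i → ∃ l, ∀ x, d * T x * d⁻¹ = T (l * x) := fun d hd => by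
    obtain ⟨b, hb⟩ := S.conj_mem_zpowers g.2 (⟨d, hd⟩ : stabilizer X i)⁻¹
    have hb' : d * ((g : stabilizer X i) : X) * d⁻¹ = ((g : stabilizer X i) : X) ^ b := by
      simpa using congrArg Subtype.val hb
    refine ⟨b, fun x => ?_⟩
    obtain ⟨k, rfl⟩ := ZMod.intCast_surjective x
    rw [← Int.cast_mul, hT, hT, zpow_mul, ← hb', conj_zpow]
  have hcu : ∀ c : X, c * u = u * c → c • i = i → c • o = o := fun c h1 h2 => by
    rcases hf (c • o) (by rw [← mul_smul, ← h1, mul_smul, uo]) with h | h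
    · exact h
    · exact absurd (MulAction.injective c (h.trans h2.symm)) oi
  have hu' : u⁻¹ = u := inv_eq_of_mul_eq_one_right uu
  have hinv : ∀ x, u * T x * u⁻¹ = T (-x) := fun x => by
    obtain ⟨l, hl⟩ := hconj u ui
    have h1 : u * T (l * x) * u⁻¹ = T x := by
      rw [← hl, hu']
      calc u * (u * T x * u) * u = (u * u) * T x * (u * u) := by group
        _ = T x := by rw [uu, one_mul, mul_one]
    have h2 : T (x + l * x) * u = u * T (x + l * x) := by
      calc T (x + l * x) * u = T (l * x + x) * u := by rw [add_comm]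
        _ = (u * T x * u⁻¹) * (u * T (l * x) * u⁻¹) * u := by rw [h1, hl, hTa]
        _ = u * T (x + l * x) := by rw [hTa]; group
    have h3 := hreg _ (hcu _ h2 (hTi _))
    rw [hl]; congr 1; linear_combination h3
  haveI : NeZero N := ⟨hN ▸ Nat.card_pos.ne'⟩
  have hsq : Function.Surjective fun x : ZMod N => x + x := by
    rw [← Finite.injective_iff_surjective]
    intro x y hxy
    have h1 : -(x - y) = x - y := by linear_combination -hxy
    have h2 := hinv (x - y)
    rw [h1, mul_inv_eq_iff_eq_mul] at h2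
    have := hreg _ (hcu _ h2.symm (hTi _))
    linear_combination this
  have hsurj : ∀ w, w ≠ i → ∃ x, T x • o = w := fun w hw => by
    obtain ⟨h, h1, h2⟩ := S.tr2 o i w i oi hw
    have hm : ⁅(⟨h, h2⟩ : stabilizer X i), (⟨u, ui⟩ : stabilizer X i)⁆ ∈
        commutator (stabilizer X i) :=
      Subgroup.commutator_mem_commutator (Subgroup.mem_top _) (Subgroup.mem_top _)
    obtain ⟨c, hc⟩ := e.surjective ⟨_, hm⟩
    obtain ⟨x, hx⟩ := hsq (Multiplicative.toAdd c)
    have hc' : T (x + x) = h * u * h⁻¹ * u⁻¹ := by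
      change ((e (Multiplicative.ofAdd (x + x)) : stabilizer X i) : X) = _
      rw [show x + x = Multiplicative.toAdd c from hx, ofAdd_toAdd, hc]
      rfl
    have h3 : T x * u * (T x)⁻¹ = h * u * h⁻¹ := by
      have h4 := hinv (-x)
      rw [neg_neg, hTn] at h4
      calc T x * u * (T x)⁻¹ = T x * (u * (T x)⁻¹ * u⁻¹) * u := by group
        _ = h * u * h⁻¹ := by rw [h4, ← hTa, hc']; group
    have h5 := hcu ((T x)⁻¹ * h) (by
      calc (T x)⁻¹ * h * u = (T x)⁻¹ * (h * u * h⁻¹) * h := by group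
        _ = _ := by rw [← h3]; group) (by rw [mul_smul, h2, inv_smul_eq_iff, hTi])
    rw [mul_smul, h1, inv_smul_eq_iff] at h5
    exact ⟨x, h5.symm⟩
  let M : MS X Ω N :=
    { o := o, i := i, T := T, u := u, a := a, T_add := hTa, T_i := hTi, inj := hinj, surj := hsurj
      ne := oi
      mult := fun d d1 d2 => by
        obtain ⟨l, hl⟩ := hconj d d2
        exact ⟨l, fun x => by
          rw [← hl, mul_smul, inv_smul_eq_iff.2 d1.symm, mul_smul]⟩
      u_o := uo, u_i := ui
      u_pt := fun x => by rw [← hinv, mul_smul, hu', uo, mul_smul]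
      swap_u := fun s s1 s2 => S.comm_u uu u1 oi uo ui (by rw [s1, ui]) (by rw [s2, uo])
      a_o := rfl
      a_i := by rw [hi, ← mul_smul, aa, one_smul]
      a_fpf := fpf }
  have hcard : Nat.card Ω = N + 1 := by
    have h1 : Nat.card (Option (ZMod N)) = Nat.card Ω := by
      refine Nat.card_congr (Equiv.ofBijective (fun x => x.elim i M.pt) ⟨?_, fun w => ?_⟩)
      · rintro (_ | x) (_ | y) h
        · rfl
        · exact absurd h.symm (M.pt_ne_i y)
        · exact absurd h (M.pt_ne_i x)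
        · rw [M.pt_inj h]
      · by_cases hw : w = i
        · exact ⟨none, hw.symm⟩
        · exact ⟨some (M.co w), M.pt_co hw⟩
    rw [← h1, Finite.card_option, Nat.card_zmod]
  refine M.good S.tr2 ?_ hcard
  obtain ⟨z, hz⟩ : ∃ z : Ω, u • z ≠ z := by
    by_contra h
    push Not at h
    exact u1 (eq_of_smul_eq_smul (α := Ω) fun w => by rw [h, one_smul])
  obtain ⟨x, rfl⟩ := hsurj z (fun h => hz (by rw [h, ui]))
  by_contra hN1
  have hN' : N = 1 := by have := NeZero.ne N; omega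
  haveI : Subsingleton (ZMod N) := by rw [hN']; infer_instance
  exact hz (by rw [Subsingleton.elim x 0, hT0, one_smul, uo])

end Setup

/-- The fixed points of `u`, acted on by its centraliser. -/
def fixSub {X : Type*} (Ω : Type*) [Group X] [MulAction X Ω] (u : X) :
    SubMulAction (Subgroup.centralizer ({u} : Set X)) Ω where
  carrier := {w | u • w = w}
  smul_mem' := fun c w hw => by
    change u • (c : X) • w = (c : X) • w
    rw [← mul_smul, c.2 u rfl, mul_smul, show u • w = w from hw]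

theorem Setup.fix {X Ω : Type*} [Group X] [MulAction X Ω] {A : Subgroup X} (S : Setup X Ω A)
    [FaithfulSMul X Ω] [Finite X] [Finite Ω] {u a : X} {o : Ω} (uu : u * u = 1)
    (u1 : u ≠ 1) (aA : a ∈ A) (aa : a * a = 1) (fpf : ∀ w : Ω, a • w ≠ w) (uo : u • o = o)
    (ui : u • a • o = a • o) :
    Setup (Subgroup.centralizer ({u} : Set X)) (fixSub Ω u)
      (A.subgroupOf (Subgroup.centralizer ({u} : Set X))) := by
  have hm : ∀ g : X, g * u = u * g → g ∈ Subgroup.centralizer ({u} : Set X) := fun g hg =>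
    Subgroup.mem_centralizer_singleton_iff.2 hg
  have au : a * u = u * a := S.comm_u uu u1 (fpf o).symm uo ui ui
    (by rw [← mul_smul a a, aa, one_smul, uo])
  refine ⟨fun p q c d hpq hcd => ?_, ?_, ?_, fun x y => ?_, fun x => ?_⟩
  · obtain ⟨g, g1, g2⟩ := S.tr2 p q c d (fun h => hpq (Subtype.ext h))
      (fun h => hcd (Subtype.ext h))
    exact ⟨⟨g, hm g (S.comm_u uu u1 (fun h => hpq (Subtype.ext h)) p.2 q.2 (by rw [g1]; exact c.2)
      (by rw [g2]; exact d.2))⟩, Subtype.ext g1, Subtype.ext g2⟩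
  · exact even_card_fix (fun w : Ω => u • w) (fun w => by rw [← mul_smul, uu, one_smul]) S.even
  · haveI := S.cyc
    exact isCyclic_of_injective
      (((Subgroup.subtype _).comp (Subgroup.subtype _)).codRestrict A fun x => x.2)
      (fun x y h => Subtype.ext (Subtype.ext (Subtype.ext_iff.1 h :)))
  · obtain ⟨b, hb, h⟩ := S.trA x y
    have hx : u • (x : Ω) = x := x.2
    have hy : u • (y : Ω) = y := y.2
    refine ⟨⟨b, hm b (S.comm_u uu u1 (fpf x).symm hx (Big.fix_smul au hx) (by rw [h, hy]) ?_)⟩,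
      hb, Subtype.ext h⟩
    rw [← mul_smul b a, S.A_comm hb aA, mul_smul, h]
    exact Big.fix_smul au hy
  · haveI := S.zgrp (x : Ω)
    exact IsZGroup.of_injective
      (f := (((Subgroup.subtype _).comp (Subgroup.subtype _)).codRestrict (stabilizer X (x : Ω))
        fun g => congrArg Subtype.val g.2))
      (fun x y h => Subtype.ext (Subtype.ext (Subtype.ext_iff.1 h :)))

theorem Setup.range {X Ω : Type*} [Group X] [MulAction X Ω] {A : Subgroup X} (S : Setup X Ω A)
    [Finite X] : Setup (toPermHom X Ω).range Ω (A.map (toPermHom X Ω).rangeRestrict) := by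
  refine ⟨fun p q c d hpq hcd => ?_, S.even, ?_, fun x y => ?_, fun x => ?_⟩
  · obtain ⟨g, g1, g2⟩ := S.tr2 p q c d hpq hcd
    exact ⟨(toPermHom X Ω).rangeRestrict g, g1, g2⟩
  · haveI := S.cyc
    exact isCyclic_of_surjective _ ((toPermHom X Ω).rangeRestrict.subgroupMap_surjective A)
  · obtain ⟨b, hb, h⟩ := S.trA x y
    exact ⟨_, Subgroup.mem_map_of_mem _ hb, h⟩
  · haveI := S.zgrp x
    refine IsZGroup.of_surjective
      (f := (((toPermHom X Ω).rangeRestrict.comp (stabilizer X x).subtype).codRestrict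
        (stabilizer (toPermHom X Ω).range x) fun g => g.2)) ?_
    rintro ⟨⟨_, g, rfl⟩, hg⟩
    exact ⟨⟨g, hg⟩, rfl⟩

theorem Good.of_range {X Ω : Type*} [Group X] [MulAction X Ω]
    (h : Good (toPermHom X Ω).range Ω) : Good X Ω := by
  refine ⟨h.card, fun a b c d h1 h2 h3 h4 h5 => ?_, fun g => h.sharp ⟨_, g, rfl⟩,
    fun g => h.inv ⟨_, g, rfl⟩⟩
  obtain ⟨⟨_, g, rfl⟩, hg⟩ := h.tr3 a b c d h1 h2 h3 h4 h5
  exact ⟨g, hg⟩

theorem Good.range {X Ω : Type*} [Group X] [MulAction X Ω]
    (h : Good X Ω) : Good (toPermHom X Ω).range Ω := by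
  refine ⟨h.card, fun a b c d h1 h2 h3 h4 h5 => ?_, ?_, ?_⟩
  · obtain ⟨g, hg⟩ := h.tr3 a b c d h1 h2 h3 h4 h5
    exact ⟨⟨_, g, rfl⟩, hg⟩
  · rintro ⟨_, g, rfl⟩; exact h.sharp g
  · rintro ⟨_, g, rfl⟩; exact h.inv g

universe v

theorem core_aux (n : ℕ) : ∀ (X Ω : Type v) [Group X] [MulAction X Ω] [Finite X] [Finite Ω]
    [Nonempty Ω] (A : Subgroup X), Nat.card Ω = n → Setup X Ω A → Nat.card Ω = 2 ∨ Good X Ω := by
  induction n using Nat.strong_induction_on with
  | _ n ih =>
  suffices H : ∀ (X Ω : Type v) [Group X] [MulAction X Ω] [Finite X] [Finite Ω]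
      [Nonempty Ω] [FaithfulSMul X Ω] (A : Subgroup X), Nat.card Ω = n → Setup X Ω A →
      Nat.card Ω = 2 ∨ Good X Ω by
    intro X Ω _ _ _ _ _ A hn S
    exact (H _ Ω _ hn S.range).imp id Good.of_range
  intro X Ω _ _ _ _ _ _ A hn S
  obtain ⟨o⟩ := ‹Nonempty Ω›
  obtain ⟨a, aA, aa, fpf⟩ := S.exists_a o
  by_cases h : ∀ t : X, t * t = 1 → t • o = o → t • a • o = a • o → t = 1
  · exact Or.inl (S.card_two (fpf o).symm h)
  push Not at h
  obtain ⟨u, uu, uo, ui, u1⟩ := h
  right
  have S' := S.fix uu u1 aA aa fpf uo ui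
  haveI : Nonempty (fixSub Ω u) := ⟨⟨o, uo⟩⟩
  have hlt : Nat.card (fixSub Ω u) < n := by
    obtain ⟨z, hz⟩ : ∃ z : Ω, u • z ≠ z := by
      by_contra h
      push Not at h
      exact u1 (eq_of_smul_eq_smul (α := Ω) fun w => by rw [h, one_smul])
    rw [← hn]
    exact Finite.card_subtype_lt (p := fun w : Ω => u • w = w) hz
  rcases ih _ hlt _ _ _ rfl S' with h2 | hG
  · refine S.good_of_two uu u1 aa fpf uo ui fun w hw => ?_
    obtain ⟨y, -, hy⟩ := (Nat.card_eq_two_iff' (⟨o, uo⟩ : fixSub Ω u)).1 h2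
    by_cases hwo : w = o
    · exact Or.inl hwo
    · have e1 := hy ⟨w, hw⟩ (fun h => hwo (congrArg Subtype.val h))
      have e2 := hy ⟨a • o, ui⟩ (fun h => fpf o (congrArg Subtype.val h))
      exact Or.inr (congrArg Subtype.val (e1.trans e2.symm))
  exfalso
  have hm : ∀ g : X, g * u = u * g → g ∈ Subgroup.centralizer ({u} : Set X) := fun g hg =>
    Subgroup.mem_centralizer_singleton_iff.2 hg
  have hne : ∀ {p q : Ω} (hp : u • p = p) (hq : u • q = q), p ≠ q →
      (⟨p, hp⟩ : fixSub Ω u) ≠ ⟨q, hq⟩ := fun _ _ h h' => h (congrArg Subtype.val h')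
  refine Big.false (X := X) (Ω := Ω) (A := A) (u := u) (a := a) (o := o) (i := a • o)
    { toSetup := S, uu := uu, u1 := u1, aA := aA, aa := aa, fpf := fpf, uo := uo, ui := ui
      ao := rfl, h3 := ?_, hs := ?_, hi := ?_, h4 := ?_ }
  · intro p q c d hp hq hc hd h1 h2 h3 h4 h5
    obtain ⟨g, g1, g2, g3⟩ := hG.tr3 ⟨p, hp⟩ ⟨q, hq⟩ ⟨c, hc⟩ ⟨d, hd⟩ (hne _ _ h1) (hne _ _ h2)
      (hne _ _ h3) (hne _ _ h4) (hne _ _ h5)
    exact ⟨g, congrArg Subtype.val g1, congrArg Subtype.val g2, congrArg Subtype.val g3⟩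
  · intro g hg p q c hp hq hc h1 h2 h3 h4 h5 h6 w hw
    exact congrArg Subtype.val (hG.sharp ⟨g, hm g hg⟩ ⟨p, hp⟩ ⟨q, hq⟩ ⟨c, hc⟩ (hne _ _ h1)
      (hne _ _ h2) (hne _ _ h3) (Subtype.ext h4) (Subtype.ext h5) (Subtype.ext h6) ⟨w, hw⟩)
  · intro g hg p q hp hq h1 h2 h3 w hw
    rw [mul_smul]
    exact congrArg Subtype.val (hG.inv ⟨g, hm g hg⟩ ⟨p, hp⟩ ⟨q, hq⟩ (hne _ _ h1)
      (Subtype.ext h2) (Subtype.ext h3) ⟨w, hw⟩)
  · intro x y z
    by_contra hc
    push Not at hc
    obtain ⟨p, hp, hcard⟩ := hG.card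
    have h4 : 4 ≤ Nat.card (fixSub Ω u) := by
      have h1 := hp.two_le
      obtain ⟨r, hr⟩ := S'.even
      omega
    have hsub : {w : Ω | u • w = w} ⊆ {x, y, z} := fun w hw => by
      by_cases h1 : w = x
      · simp [h1]
      by_cases h2 : w = y
      · simp [h2]
      simp [hc w hw h1 h2]
    have h5 := Set.ncard_le_ncard hsub
    have h6 : ({x, y, z} : Set Ω).ncard ≤ 3 :=
      (Set.ncard_insert_le _ _).trans (Nat.succ_le_succ ((Set.ncard_insert_le _ _).trans
        (by simp)))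
    have h7 : Nat.card (fixSub Ω u) = {w : Ω | u • w = w}.ncard := rfl
    omega

/-- A doubly transitive action of even degree with a transitive cyclic subgroup and Z-groups as
point stabilisers has degree two or looks like `PGL₂(p)` on the projective line. -/
theorem core {X Ω : Type*} [Group X] [MulAction X Ω] [Finite X] [Finite Ω] [Nonempty Ω]
    {A : Subgroup X} (S : Setup X Ω A) : Nat.card Ω = 2 ∨ Good X Ω :=
  (core_aux _ _ Ω _ rfl S.range).imp id Good.of_range

end Cfsg.Lib.CycZ
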